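import Mathlib.LinearAlgebra.TensorPower.Symmetric
import Mathlib.LinearAlgebra.PiTensorProduct.Basic
import Mathlib.LinearAlgebra.Multilinear.Basic
import Mathlib.Data.Fintype.Perm

/-!
# Basic API for Mathlib's `SymmetricPower`

Universal property, extensionality on a spanning set, functoriality, reindexing, and the
symmetrization map to the tensor power.
-/

set_option autoImplicit false

open TensorProduct Equiv

universe u v w w'

namespace Groth.Agent.Ega4late.H516.SymPow

section lift

variable {R ι : Type u} [CommSemiring R] {M : Type v} [AddCommMonoid M] [Module R M]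
  {N : Type w} [AddCommMonoid N] [Module R N]

/-- The universal property of the symmetric power: a multilinear map which is invariant under
permutations of the arguments factors through the symmetric power. -/
noncomputable def lift (f : MultilinearMap R (fun _ : ι => M) N)
    (hf : ∀ (e : Perm ι) (m : ι → M), f (fun i => m (e i)) = f m) :
    SymmetricPower R ι M →ₗ[R] N where
  toFun := AddCon.lift (addConGen (SymmetricPower.Rel R ι M))
    (PiTensorProduct.lift f).toAddMonoidHom (by
      rw [AddCon.addConGen_le]
      intro x y h
      cases h with
      | perm e g =>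
        simp only [AddCon.ker_rel, LinearMap.toAddMonoidHom_coe, PiTensorProduct.lift.tprod]
        exact (hf e g).symm)
  map_add' := map_add _
  map_smul' := by
    intro r x
    induction x using AddCon.induction_on with
    | H x => exact (PiTensorProduct.lift f).map_smul r x

theorem lift_mk (f : MultilinearMap R (fun _ : ι => M) N)
    (hf : ∀ (e : Perm ι) (m : ι → M), f (fun i => m (e i)) = f m) (x : ⨂[R] (_ : ι), M) :
    lift f hf (SymmetricPower.mk R ι M x) = PiTensorProduct.lift f x := rfl

@[simp]
theorem lift_tprod (f : MultilinearMap R (fun _ : ι => M) N)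
    (hf : ∀ (e : Perm ι) (m : ι → M), f (fun i => m (e i)) = f m) (m : ι → M) :
    lift f hf (SymmetricPower.tprod R m) = f m :=
  PiTensorProduct.lift.tprod m

/-- Two linear maps out of the symmetric power agree if they agree on pure symmetric tensors. -/
theorem hom_ext {φ ψ : SymmetricPower R ι M →ₗ[R] N}
    (h : ∀ m : ι → M, φ (SymmetricPower.tprod R m) = ψ (SymmetricPower.tprod R m)) : φ = ψ := by
  apply LinearMap.ext_on (SymmetricPower.span_tprod_eq_top (R := R) (ι := ι) (M := M))
  rintro _ ⟨m, rfl⟩
  exact h m

end lift

section span

variable {R ι : Type u} [CommSemiring R] {M : Type v} [AddCommMonoid M] [Module R M]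
  {N : Type w} [AddCommMonoid N] [Module R N]

/-- If the `g b` span `M`, then a multilinear map is determined by its values on the `g b`. -/
theorem multilinear_ext_on_span [Finite ι] {β : Type w'} (g : β → M)
    (hg : Submodule.span R (Set.range g) = ⊤) {f₁ f₂ : MultilinearMap R (fun _ : ι => M) N}
    (h : ∀ b : ι → β, f₁ (fun i => g (b i)) = f₂ (fun i => g (b i))) : f₁ = f₂ := by
  classical
  cases nonempty_fintype ι
  -- prove by induction on the finset of arguments which are arbitrary
  have key : ∀ (s : Finset ι) (m : ι → M), (∀ i, i ∉ s → m i ∈ Set.range g) → f₁ m = f₂ m := by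
    intro s
    induction s using Finset.induction_on with
    | empty =>
      intro m hm
      choose b hb using fun i => hm i (by simp)
      have : m = fun i => g (b i) := funext fun i => (hb i).symm
      rw [this]; exact h b
    | insert a s ha ih =>
      intro m hm
      have h1 : ∀ y : M, f₁ (Function.update m a y) = f₂ (Function.update m a y) := by
        intro y
        have hy : y ∈ Submodule.span R (Set.range g) := by rw [hg]; trivial
        induction hy using Submodule.span_induction with
        | mem x hx =>
          apply ih
          intro i hi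
          by_cases hia : i = a
          · subst hia; simpa using hx
          · rw [Function.update_of_ne hia]
            exact hm i (by simp [hia, hi])
        | zero => rw [MultilinearMap.map_update_zero, MultilinearMap.map_update_zero]
        | add x y _ _ hx hy =>
          rw [MultilinearMap.map_update_add, MultilinearMap.map_update_add, hx, hy]
        | smul r x _ hx =>
          rw [MultilinearMap.map_update_smul, MultilinearMap.map_update_smul, hx]
      have := h1 (m a)
      rwa [Function.update_eq_self] at this
  ext m
  exact key Finset.univ m (by simp)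

/-- If the `g b` span `M`, linear maps out of the symmetric power are determined by their values on
the `tprod (g ∘ b)`. -/
theorem hom_ext_on_span [Finite ι] {β : Type w'} (g : β → M)
    (hg : Submodule.span R (Set.range g) = ⊤) {φ ψ : SymmetricPower R ι M →ₗ[R] N}
    (h : ∀ b : ι → β, φ (SymmetricPower.tprod R (fun i => g (b i))) =
      ψ (SymmetricPower.tprod R (fun i => g (b i)))) : φ = ψ := by
  have : φ.compMultilinearMap (SymmetricPower.tprod R) =
      ψ.compMultilinearMap (SymmetricPower.tprod R) :=
    multilinear_ext_on_span g hg h
  apply hom_ext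
  intro m
  exact congrArg (fun f : MultilinearMap R (fun _ : ι => M) N => f m) this

end span

section functoriality

variable {R ι : Type u} [CommSemiring R] {M : Type v} [AddCommMonoid M] [Module R M]
  {N : Type w} [AddCommMonoid N] [Module R N] {L : Type w'} [AddCommMonoid L] [Module R L]

/-- Functoriality of the symmetric power in the module. -/
noncomputable def map (f : M →ₗ[R] N) : SymmetricPower R ι M →ₗ[R] SymmetricPower R ι N :=
  lift ((SymmetricPower.tprod R).compLinearMap (fun _ => f)) (by
    intro e m
    simp only [MultilinearMap.compLinearMap_apply]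
    exact SymmetricPower.tprod_equiv e (fun i => f (m i)))

@[simp]
theorem map_tprod (f : M →ₗ[R] N) (m : ι → M) :
    map f (SymmetricPower.tprod R m) = SymmetricPower.tprod R (fun i => f (m i)) := by
  rw [map, lift_tprod]; rfl

theorem map_id : map (ι := ι) (LinearMap.id : M →ₗ[R] M) = LinearMap.id :=
  hom_ext fun m => by simp

theorem map_comp (g : N →ₗ[R] L) (f : M →ₗ[R] N) :
    map (ι := ι) (g ∘ₗ f) = map g ∘ₗ map f :=
  hom_ext fun m => by simp

/-- Functoriality of the symmetric power for linear equivalences. -/
noncomputable def congr (e : M ≃ₗ[R] N) : SymmetricPower R ι M ≃ₗ[R] SymmetricPower R ι N :=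
  LinearEquiv.ofLinearMap (map e.toLinearMap) (map e.symm.toLinearMap)
    (hom_ext fun m => by simp) (hom_ext fun m => by simp)

@[simp]
theorem congr_tprod (e : M ≃ₗ[R] N) (m : ι → M) :
    congr e (SymmetricPower.tprod R m) = SymmetricPower.tprod R (fun i => e (m i)) :=
  map_tprod e.toLinearMap m

variable (M) in
/-- Reindexing the symmetric power. -/
noncomputable def reindexHom {κ : Type u} (e : ι ≃ κ) :
    SymmetricPower R ι M →ₗ[R] SymmetricPower R κ M :=
  lift ((SymmetricPower.tprod R (M := M) (ι := κ)).domDomCongr e.symm) (by
    intro σ m
    simp only [MultilinearMap.domDomCongr_apply]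
    have := SymmetricPower.tprod_equiv (R := R) (e.symm.trans (σ.trans e)) (fun i => m (e.symm i))
    simpa using this)

@[simp]
theorem reindexHom_tprod {κ : Type u} (e : ι ≃ κ) (m : ι → M) :
    reindexHom (R := R) M e (SymmetricPower.tprod R m) =
      SymmetricPower.tprod R (fun i => m (e.symm i)) := by
  rw [reindexHom, lift_tprod]; rfl

variable (R M) in
/-- Reindexing the symmetric power, as an equivalence. -/
noncomputable def reindex {κ : Type u} (e : ι ≃ κ) :
    SymmetricPower R ι M ≃ₗ[R] SymmetricPower R κ M :=
  LinearEquiv.ofLinearMap (reindexHom M e) (reindexHom M e.symm)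
    (hom_ext fun m => by simp) (hom_ext fun m => by simp)

@[simp]
theorem reindex_tprod {κ : Type u} (e : ι ≃ κ) (m : ι → M) :
    reindex R M e (SymmetricPower.tprod R m) = SymmetricPower.tprod R (fun i => m (e.symm i)) :=
  reindexHom_tprod e m

end functoriality

section symmetrization

variable (R : Type u) (ι : Type u) [CommSemiring R] [Fintype ι] [DecidableEq ι]
  (M : Type v) [AddCommMonoid M] [Module R M]

/-- The symmetrization map `Sym^ι M → ⨂^ι M`, `∏ m_i ↦ ∑_σ ⨂ m_{σ i}`. -/
noncomputable def symmetrize : SymmetricPower R ι M →ₗ[R] ⨂[R] (_ : ι), M :=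
  lift (∑ σ : Perm ι, (PiTensorProduct.tprod R (s := fun _ : ι => M)).domDomCongr σ) (by
    intro e m
    simp only [_root_.sum_apply, MultilinearMap.domDomCongr_apply]
    exact Fintype.sum_equiv (Equiv.mulLeft e) _ _ (fun σ => rfl))

theorem symmetrize_tprod (m : ι → M) :
    symmetrize R ι M (SymmetricPower.tprod R m) =
      ∑ σ : Perm ι, PiTensorProduct.tprod R (fun i => m (σ i)) := by
  rw [symmetrize, lift_tprod]
  simp only [_root_.sum_apply, MultilinearMap.domDomCongr_apply]

theorem mk_symmetrize (x : SymmetricPower R ι M) :
    SymmetricPower.mk R ι M (symmetrize R ι M x) = (Fintype.card ι).factorial • x := by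
  have : (SymmetricPower.mk R ι M).comp (symmetrize R ι M) =
      (Fintype.card ι).factorial • LinearMap.id := by
    apply hom_ext
    intro m
    rw [LinearMap.comp_apply, symmetrize_tprod, map_sum]
    have : ∀ σ : Perm ι, SymmetricPower.mk R ι M (PiTensorProduct.tprod R (fun i => m (σ i))) =
        SymmetricPower.tprod R m := fun σ => SymmetricPower.tprod_equiv σ m
    simp only [this]
    simp [Fintype.card_perm]
  exact congrArg (fun f : SymmetricPower R ι M →ₗ[R] SymmetricPower R ι M => f x) this

end symmetrization

end Groth.Agent.Ega4late.H516.SymPow
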