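import Mathlib.RingTheory.Ideal.Cotangent
import Groth.Agent.Ega4late.H516.SymPow

/-!
# The canonical map from the symmetric power of `I/I²` to `I^n/I^(n+1)`, abstract form

For an `S`-algebra `R`, an ideal `I` of `R` and a finite type `ι` of cardinality `n`, the target
`I^n/I^(n+1)` is presented by an `S`-linear map `q` defined on `I^n` which vanishes on `I^(n+1)`.
-/

set_option autoImplicit false

open TensorProduct Equiv

universe u v w w'

namespace Groth.Agent.Ega4late.H516.CanonGen

section products

variable {R : Type v} [CommRing R] (I : Ideal R)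

theorem prod_mem {ι : Type w} (s : Finset ι) (x : ι → R) (hx : ∀ i ∈ s, x i ∈ I) :
    ∏ i ∈ s, x i ∈ I ^ s.card := by
  classical
  induction s using Finset.induction_on with
  | empty => simp
  | insert a s ha ih =>
    rw [Finset.prod_insert ha, Finset.card_insert_of_notMem ha, pow_succ']
    exact Ideal.mul_mem_mul (hx a (by simp)) (ih fun i hi => hx i (by simp [hi]))

theorem prod_univ_mem {ι : Type w} [Fintype ι] (x : ι → R) (hx : ∀ i, x i ∈ I) :
    ∏ i, x i ∈ I ^ Fintype.card ι :=
  prod_mem I Finset.univ x fun i _ => hx i

/-- Products of elements of `I` which agree modulo `I²` agree modulo `I^(n+1)`. -/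
theorem prod_sub_prod_mem {ι : Type w} (s : Finset ι) (x y : ι → R) (hx : ∀ i ∈ s, x i ∈ I)
    (hy : ∀ i ∈ s, y i ∈ I) (h : ∀ i ∈ s, x i - y i ∈ I ^ 2) :
    ∏ i ∈ s, x i - ∏ i ∈ s, y i ∈ I ^ (s.card + 1) := by
  classical
  induction s using Finset.induction_on with
  | empty => simp
  | insert a s ha ih =>
    rw [Finset.prod_insert ha, Finset.prod_insert ha, Finset.card_insert_of_notMem ha]
    have e : x a * ∏ i ∈ s, x i - y a * ∏ i ∈ s, y i =
        (x a - y a) * ∏ i ∈ s, x i + y a * (∏ i ∈ s, x i - ∏ i ∈ s, y i) := by ring
    rw [e]
    refine Ideal.add_mem _ ?_ ?_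
    · have : I ^ (s.card + 1 + 1) = I ^ 2 * I ^ s.card := by rw [← pow_add]; ring_nf
      rw [this]
      exact Ideal.mul_mem_mul (h a (by simp)) (prod_mem I s x fun i hi => hx i (by simp [hi]))
    · rw [pow_succ' I (s.card + 1)]
      exact Ideal.mul_mem_mul (hy a (by simp)) (ih (fun i hi => hx i (by simp [hi]))
        (fun i hi => hy i (by simp [hi])) (fun i hi => h i (by simp [hi])))

end products

section canon

variable {S : Type u} {R : Type v} [CommRing S] [CommRing R] [Algebra S R] (I : Ideal R)
  {ι : Type w} [Fintype ι] {N : Type w'} [AddCommGroup N] [Module S N]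
  (q : ↥((I ^ Fintype.card ι).restrictScalars S) →ₗ[S] N)

/-- The value of `q` at the product of a family of elements of `I`. -/
def qprod (x : ι → I) : N :=
  q ⟨∏ i, (x i : R), prod_univ_mem I (fun i => (x i : R)) (fun i => (x i).2)⟩

variable (hq : ∀ x : ↥((I ^ Fintype.card ι).restrictScalars S),
  (x : R) ∈ I ^ (Fintype.card ι + 1) → q x = 0)

include hq in
theorem qprod_congr (x y : ι → I) (h : ∀ i, I.toCotangent (x i) = I.toCotangent (y i)) :
    qprod I q x = qprod I q y := by
  rw [qprod, qprod, ← sub_eq_zero, ← map_sub]
  apply hq
  exact prod_sub_prod_mem I Finset.univ (fun i => (x i : R)) (fun i => (y i : R))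
    (fun i _ => (x i).2) (fun i _ => (y i).2) (fun i _ => (I.toCotangent_eq).1 (h i))

/-- Underlying function of the multilinear map. -/
noncomputable def multiFun (m : ι → I.Cotangent) : N :=
  qprod I q (fun i => Function.surjInv I.toCotangent_surjective (m i))

include hq in
theorem multiFun_toCotangent (x : ι → I) :
    multiFun I q (fun i => I.toCotangent (x i)) = qprod I q x :=
  qprod_congr I q hq _ _ fun _ => Function.surjInv_eq I.toCotangent_surjective _

theorem qprod_update_add [DecidableEq ι] (x : ι → I) (i : ι) (a b : I) :
    qprod I q (Function.update x i (a + b)) =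
      qprod I q (Function.update x i a) + qprod I q (Function.update x i b) := by
  rw [qprod, qprod, qprod, ← map_add]
  congr 1
  apply Subtype.ext
  have key : ∀ c : I, ∏ j, ((Function.update x i c j : I) : R) =
      (c : R) * ∏ j ∈ Finset.univ \ {i}, (x j : R) := by
    intro c
    have : (fun j => ((Function.update x i c j : I) : R)) =
        Function.update (fun j => (x j : R)) i (c : R) := by
      funext j
      by_cases h : j = i
      · subst h; simp
      · simp [Function.update_of_ne h]
    rw [this, Finset.prod_update_of_mem (Finset.mem_univ i)]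
  change ∏ j, ((Function.update x i (a + b) j : I) : R) =
    ∏ j, ((Function.update x i a j : I) : R) + ∏ j, ((Function.update x i b j : I) : R)
  rw [key, key, key, Submodule.coe_add, add_mul]

theorem qprod_update_smul [DecidableEq ι] (x : ι → I) (i : ι) (s : S) (a : I) :
    qprod I q (Function.update x i (s • a)) = s • qprod I q (Function.update x i a) := by
  rw [qprod, qprod, ← map_smul]
  congr 1
  apply Subtype.ext
  have key : ∀ c : I, ∏ j, ((Function.update x i c j : I) : R) =
      (c : R) * ∏ j ∈ Finset.univ \ {i}, (x j : R) := by
    intro c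
    have : (fun j => ((Function.update x i c j : I) : R)) =
        Function.update (fun j => (x j : R)) i (c : R) := by
      funext j
      by_cases h : j = i
      · subst h; simp
      · simp [Function.update_of_ne h]
    rw [this, Finset.prod_update_of_mem (Finset.mem_univ i)]
  change ∏ j, ((Function.update x i (s • a) j : I) : R) =
    s • ∏ j, ((Function.update x i a j : I) : R)
  rw [key, key, Submodule.coe_smul_of_tower, smul_mul_assoc]

include hq in
theorem multiFun_update_eq [DecidableEq ι] (m : ι → I.Cotangent) (i : ι) (a : I) :
    multiFun I q (Function.update m i (I.toCotangent a)) =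
      qprod I q (Function.update (fun i => Function.surjInv I.toCotangent_surjective (m i)) i a) := by
  rw [← multiFun_toCotangent I q hq]
  congr 1
  funext j
  by_cases h : j = i
  · subst h; simp
  · simp [Function.update_of_ne h, Function.surjInv_eq]

/-- The multilinear map `(I/I²)^ι → N` induced by products. -/
noncomputable def multi : MultilinearMap S (fun _ : ι => I.Cotangent) N where
  toFun := multiFun I q
  map_update_add' := by
    intro _ m i a b
    obtain ⟨a, rfl⟩ := I.toCotangent_surjective a
    obtain ⟨b, rfl⟩ := I.toCotangent_surjective b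
    rw [← map_add, multiFun_update_eq I q hq, multiFun_update_eq I q hq,
      multiFun_update_eq I q hq, qprod_update_add]
  map_update_smul' := by
    intro _ m i s a
    obtain ⟨a, rfl⟩ := I.toCotangent_surjective a
    have : s • I.toCotangent a = I.toCotangent (s • a) := by
      rw [← LinearMap.map_smul_of_tower]
    rw [this, multiFun_update_eq I q hq, multiFun_update_eq I q hq, qprod_update_smul]

theorem multi_toCotangent (x : ι → I) :
    multi I q hq (fun i => I.toCotangent (x i)) = qprod I q x :=
  multiFun_toCotangent I q hq x

theorem multi_perm (e : Perm ι) (m : ι → I.Cotangent) :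
    multi I q hq (fun i => m (e i)) = multi I q hq m := by
  choose x hx using fun i => I.toCotangent_surjective (m i)
  have hm : m = fun i => I.toCotangent (x i) := funext fun i => (hx i).symm
  subst hm
  rw [multi_toCotangent I q hq x, multi_toCotangent I q hq (fun i => x (e i)), qprod, qprod]
  congr 1
  apply Subtype.ext
  exact Equiv.prod_comp e (fun i => (x i : R))

end canon

section canon'

variable {S : Type u} {R : Type v} [CommRing S] [CommRing R] [Algebra S R] (I : Ideal R)
  {ι : Type u} [Fintype ι] {N : Type w'} [AddCommGroup N] [Module S N]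
  (q : ↥((I ^ Fintype.card ι).restrictScalars S) →ₗ[S] N)
  (hq : ∀ x : ↥((I ^ Fintype.card ι).restrictScalars S),
    (x : R) ∈ I ^ (Fintype.card ι + 1) → q x = 0)

/-- The canonical map `Sym^ι_S(I/I²) → N` induced by products. -/
noncomputable def canonGen : SymmetricPower S ι I.Cotangent →ₗ[S] N :=
  SymPow.lift (multi I q hq) (multi_perm I q hq)

theorem canonGen_tprod (x : ι → I) :
    canonGen I q hq (SymmetricPower.tprod S (fun i => I.toCotangent (x i))) = qprod I q x := by
  rw [canonGen, SymPow.lift_tprod, multi_toCotangent]

/-- The ideal `I^n` is spanned by products of `n` elements of `I`. -/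
theorem pow_card_eq_span {R : Type v} [CommRing R] (I : Ideal R) (ι : Type w) [Fintype ι] :
    I ^ Fintype.card ι = Ideal.span (Set.range fun x : ι → I => ∏ i, (x i : R)) := by
  classical
  have key : ∀ s : Finset ι, I ^ s.card =
      Ideal.span (Set.range fun x : ι → I => ∏ i ∈ s, (x i : R)) := by
    intro s
    induction s using Finset.induction_on with
    | empty =>
      rw [Finset.card_empty, pow_zero, eq_comm, Ideal.one_eq_top, Ideal.eq_top_iff_one]
      exact Ideal.subset_span ⟨fun _ => 0, by simp⟩
    | insert a s ha ih =>
      apply le_antisymm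
      · rw [Finset.card_insert_of_notMem ha, pow_succ', ih]
        rw [Ideal.mul_le]
        intro r hr t ht
        induction ht using Submodule.span_induction with
        | mem z hz =>
          obtain ⟨x, rfl⟩ := hz
          apply Ideal.subset_span
          refine ⟨Function.update x a ⟨r, hr⟩, ?_⟩
          simp only
          rw [Finset.prod_insert ha]
          simp only [Function.update_self]
          congr 1
          apply Finset.prod_congr rfl
          intro i hi
          have : i ≠ a := fun h => ha (h ▸ hi)
          rw [Function.update_of_ne this]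
        | zero => simp
        | add y z _ _ hy hz => rw [mul_add]; exact Ideal.add_mem _ hy hz
        | smul c y _ hy =>
          rw [smul_eq_mul, mul_left_comm]; exact Ideal.mul_mem_left _ _ hy
      · rw [Ideal.span_le]
        rintro _ ⟨x, rfl⟩
        exact prod_mem I (insert a s) (fun i => (x i : R)) (fun i _ => (x i).2)
  exact key Finset.univ

/-- If `R = S·1 + I` and `q` is surjective, the canonical map is surjective. -/
theorem canonGen_surjective (hqs : Function.Surjective q)
    (hS : ∀ r : R, ∃ s : S, r - algebraMap S R s ∈ I) :
    Function.Surjective (canonGen I q hq) := by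
  rw [← LinearMap.range_eq_top, eq_top_iff]
  rintro z -
  obtain ⟨⟨z, hz⟩, rfl⟩ := hqs z
  have hz' : z ∈ I ^ Fintype.card ι := hz
  -- show that all elements of `I^n` have `q` in the range
  have key : ∀ z : R, ∀ hz : z ∈ I ^ Fintype.card ι,
      q ⟨z, hz⟩ ∈ LinearMap.range (canonGen I q hq) := by
    intro z hz
    have hz2 := hz
    rw [pow_card_eq_span I ι] at hz2
    -- induction with existential membership
    suffices h : ∃ hz : z ∈ I ^ Fintype.card ι, q ⟨z, hz⟩ ∈ LinearMap.range (canonGen I q hq) by
      obtain ⟨_, h⟩ := h; exact h
    clear hz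
    induction hz2 using Submodule.span_induction with
    | mem z hz =>
      obtain ⟨x, rfl⟩ := hz
      refine ⟨prod_univ_mem I (fun i => (x i : R)) (fun i => (x i).2), ?_⟩
      exact ⟨_, canonGen_tprod I q hq x⟩
    | zero =>
      refine ⟨Ideal.zero_mem _, ?_⟩
      have : q ⟨0, Ideal.zero_mem _⟩ = 0 := map_zero q
      rw [this]; exact Submodule.zero_mem _
    | add y z _ _ hy hz =>
      obtain ⟨h1, h1'⟩ := hy
      obtain ⟨h2, h2'⟩ := hz
      refine ⟨Ideal.add_mem _ h1 h2, ?_⟩
      have : q ⟨y + z, Ideal.add_mem _ h1 h2⟩ = q ⟨y, h1⟩ + q ⟨z, h2⟩ := by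
        rw [← map_add]; rfl
      rw [this]; exact Submodule.add_mem _ h1' h2'
    | smul c y _ hy =>
      obtain ⟨h1, h1'⟩ := hy
      refine ⟨Ideal.mul_mem_left _ c h1, ?_⟩
      obtain ⟨s, hs⟩ := hS c
      have h3 : (c - algebraMap S R s) * y ∈ I ^ (Fintype.card ι + 1) := by
        rw [pow_succ']; exact Ideal.mul_mem_mul hs h1
      have : q ⟨c • y, Ideal.mul_mem_left _ c h1⟩ = s • q ⟨y, h1⟩ := by
        rw [← map_smul, ← sub_eq_zero, ← map_sub]
        apply hq
        change c * y - s • y ∈ _
        rw [Algebra.smul_def, ← sub_mul]
        exact h3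
      rw [this]; exact Submodule.smul_mem _ s h1'
  exact key z hz'

end canon'

end Groth.Agent.Ega4late.H516.CanonGen
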