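import Groth.Prelude.Def_PP16
import Groth.Agent.Ega4late.H516.CanonGen

/-!
# The canonical surjections `Sym^n(Ω) → I^n/I^(n+1)` and `Sym^n(J/J²) → J^n/J^(n+1)`
-/

set_option autoImplicit false

open TensorProduct Equiv PP16

universe u

namespace Groth.Agent.Ega4late.H516.CanonMap

section diff

variable (A B : Type u) [CommRing A] [CommRing B] [Algebra A B]

/-- The projection `I^n → I^n/I^(n+1)`. -/
noncomputable def qI (n : ℕ) : ↥((KaehlerDifferential.ideal A B ^ n).restrictScalars B) →ₗ[B] grI A B n :=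
  Submodule.mkQ _

theorem qI_surjective (n : ℕ) : Function.Surjective (qI A B n) := Submodule.mkQ_surjective _

theorem qI_eq_zero_iff (n : ℕ) (x : ↥((KaehlerDifferential.ideal A B ^ n).restrictScalars B)) :
    qI A B n x = 0 ↔ (x : B ⊗[A] B) ∈ KaehlerDifferential.ideal A B ^ (n + 1) := by
  rw [qI, Submodule.mkQ_apply, Submodule.Quotient.mk_eq_zero]
  rfl

/-- The canonical map `Sym^n(Ω_{B/A}) → I^n/I^(n+1)`. -/
noncomputable def canon (ι : Type u) [Fintype ι] :
    SymmetricPower B ι (KaehlerDifferential A B) →ₗ[B] grI A B (Fintype.card ι) :=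
  CanonGen.canonGen (KaehlerDifferential.ideal A B) (qI A B (Fintype.card ι))
    (fun x => (qI_eq_zero_iff A B _ x).2)

theorem canon_tprod_fromIdeal {ι : Type u} [Fintype ι] (x : ι → KaehlerDifferential.ideal A B) :
    canon A B ι (SymmetricPower.tprod B (fun i => KaehlerDifferential.fromIdeal A B (x i))) =
      qI A B (Fintype.card ι) ⟨∏ i, (x i : B ⊗[A] B),
        CanonGen.prod_univ_mem _ (fun i => (x i : B ⊗[A] B)) (fun i => (x i).2)⟩ :=
  CanonGen.canonGen_tprod (KaehlerDifferential.ideal A B) (qI A B (Fintype.card ι))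
    (fun x => (qI_eq_zero_iff A B _ x).2) x

theorem canon_tprod_D {ι : Type u} [Fintype ι] (b : ι → B) :
    canon A B ι (SymmetricPower.tprod B (fun i => KaehlerDifferential.D A B (b i))) =
      zetaProd A B b :=
  canon_tprod_fromIdeal A B (fun i => ⟨(1 : B) ⊗ₜ[A] b i - b i ⊗ₜ[A] (1 : B),
    KaehlerDifferential.one_smul_sub_smul_one_mem_ideal A (b i)⟩)

theorem canon_surjective (ι : Type u) [Fintype ι] : Function.Surjective (canon A B ι) := by
  apply CanonGen.canonGen_surjective _ _ _ (qI_surjective A B _)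
  intro r
  refine ⟨Algebra.TensorProduct.lmul' A r, ?_⟩
  rw [RingHom.mem_ker, map_sub, sub_eq_zero]
  simp

theorem eq_canon {ι : Type u} [Fintype ι]
    (φ : SymmetricPower B ι (KaehlerDifferential A B) →ₗ[B] grI A B (Fintype.card ι))
    (hφ : ∀ b : ι → B, φ (SymmetricPower.tprod B (fun i => KaehlerDifferential.D A B (b i))) =
      zetaProd A B b) : φ = canon A B ι :=
  SymPow.hom_ext_on_span (fun b => KaehlerDifferential.D A B b)
    (KaehlerDifferential.span_range_derivation A B) fun b => by rw [hφ, canon_tprod_D]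

/-- Differential smoothness in terms of the canonical map. -/
theorem isDiffSmooth_iff : IsDiffSmooth A B ↔
    Module.Projective B (KaehlerDifferential A B) ∧
      ∀ (ι : Type u) [Fintype ι], Function.Injective (canon A B ι) := by
  refine and_congr Iff.rfl (forall_congr' fun ι => forall_congr' fun _ => ⟨?_, ?_⟩)
  · rintro ⟨φ, hφ, hb⟩
    rw [← eq_canon A B φ hφ]
    exact hb.1
  · intro h
    exact ⟨canon A B ι, canon_tprod_D A B, h, canon_surjective A B ι⟩

end diff

section ideal

variable (R : Type u) [CommRing R] (J : Ideal R)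

/-- The projection `J^n → J^n/J^(n+1)`. -/
noncomputable def qJ (n : ℕ) : ↥((J ^ n).restrictScalars R : Submodule R R) →ₗ[R] grJ R J n :=
  Submodule.mkQ (Submodule.comap (J ^ n).subtype (J ^ (n + 1)))

theorem qJ_surjective (n : ℕ) : Function.Surjective (qJ R J n) := by
  intro z
  obtain ⟨y, rfl⟩ := Submodule.Quotient.mk_surjective _ z
  exact ⟨⟨y.1, y.2⟩, rfl⟩

theorem qJ_eq_zero_iff (n : ℕ) (x : ↥((J ^ n).restrictScalars R : Submodule R R)) :
    qJ R J n x = 0 ↔ (x : R) ∈ J ^ (n + 1) := by
  change Submodule.Quotient.mk (p := Submodule.comap (J ^ n).subtype (J ^ (n + 1)))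
    (⟨x.1, x.2⟩ : ↥(J ^ n)) = 0 ↔ _
  rw [Submodule.Quotient.mk_eq_zero]
  rfl

/-- The canonical map `Sym^n(J/J²) → J^n/J^(n+1)`. -/
noncomputable def canonJ (ι : Type u) [Fintype ι] :
    SymmetricPower R ι J.Cotangent →ₗ[R] grJ R J (Fintype.card ι) :=
  CanonGen.canonGen J (qJ R J (Fintype.card ι)) (fun x => (qJ_eq_zero_iff R J _ x).2)

theorem canonJ_tprod {ι : Type u} [Fintype ι] (x : ι → J) :
    canonJ R J ι (SymmetricPower.tprod R (fun i => J.toCotangent (x i))) = zetaJ R J x :=
  CanonGen.canonGen_tprod J (qJ R J (Fintype.card ι)) (fun x => (qJ_eq_zero_iff R J _ x).2) x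

theorem canonJ_surjective (ι : Type u) [Fintype ι] : Function.Surjective (canonJ R J ι) := by
  apply CanonGen.canonGen_surjective _ _ _ (qJ_surjective R J _)
  intro r
  exact ⟨r, by simp⟩

theorem eq_canonJ {ι : Type u} [Fintype ι]
    (φ : SymmetricPower R ι J.Cotangent →ₗ[R] grJ R J (Fintype.card ι))
    (hφ : ∀ x : ι → J, φ (SymmetricPower.tprod R (fun i => J.toCotangent (x i))) =
      zetaJ R J x) : φ = canonJ R J ι :=
  SymPow.hom_ext_on_span (fun b => J.toCotangent b)
    (by
      rw [← LinearMap.coe_range, J.toCotangent_range]; simp)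
    fun b => by rw [hφ, canonJ_tprod]

/-- `SymGrBijective` in terms of the canonical map. -/
theorem symGrBijective_iff : SymGrBijective R J ↔
    ∀ (ι : Type u) [Fintype ι] [Nonempty ι], Function.Injective (canonJ R J ι) := by
  refine forall_congr' fun ι => forall_congr' fun _ => forall_congr' fun _ => ⟨?_, ?_⟩
  · rintro ⟨φ, hφ, hb⟩
    rw [← eq_canonJ R J φ hφ]
    exact hb.1
  · intro h
    exact ⟨canonJ R J ι, canonJ_tprod R J, h, canonJ_surjective R J ι⟩

end ideal

end Groth.Agent.Ega4late.H516.CanonMap
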