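import Groth.Agent.Ega4late.H516.SymFree
import Groth.Agent.Ega4late.H516.CanonMap

/-!
# The canonical map in terms of homogeneous polynomials, when `I/I²` is free

If `I/I²` is free over `S` with basis `b` and `x l ∈ I` lifts `b l`, then injectivity of the
canonical map in degree `n` means: a homogeneous polynomial `P` of degree `n` with coefficients
in `S` such that `P(x) ∈ I^(n+1)` is zero.
-/

set_option autoImplicit false

open TensorProduct Equiv Module

universe u v w w'

namespace Groth.Agent.Ega4late.H516.CanonFree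

section general

variable {S : Type u} {R : Type v} [CommRing S] [CommRing R] [Algebra S R] (I : Ideal R)
  {Λ : Type w}

theorem aeval_mem_pow (x : Λ → R) (hx : ∀ l, x l ∈ I) {n : ℕ} {P : MvPolynomial Λ S}
    (hP : P.IsHomogeneous n) : MvPolynomial.aeval x P ∈ I ^ n := by
  rw [P.as_sum, map_sum]
  refine Ideal.sum_mem _ fun d hd => ?_
  rw [MvPolynomial.aeval_monomial]
  apply Ideal.mul_mem_left
  have hd' : d.degree = n := by
    rw [Finsupp.degree_eq_weight_one]
    exact hP (MvPolynomial.mem_support_iff.1 hd)
  rw [← hd', Finsupp.degree_apply, Finsupp.prod, ← Finset.prod_pow_eq_pow_sum]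
  exact Ideal.prod_mem_prod fun l _ => Ideal.pow_mem_pow (hx l) _

variable {ι : Type u} [Fintype ι] {N : Type w'} [AddCommGroup N] [Module S N]
  (q : ↥((I ^ Fintype.card ι).restrictScalars S) →ₗ[S] N)
  (hq : ∀ x : ↥((I ^ Fintype.card ι).restrictScalars S),
    (x : R) ∈ I ^ (Fintype.card ι + 1) → q x = 0)
  (b : Basis Λ S I.Cotangent) (x : Λ → I) (hx : ∀ l, I.toCotangent (x l) = b l)

/-- Evaluation at the lifts `x`, on the symmetric power. -/
noncomputable def evalSym : SymmetricPower S ι I.Cotangent →ₗ[S]
    ↥((I ^ Fintype.card ι).restrictScalars S) :=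
  LinearMap.codRestrict ((I ^ Fintype.card ι).restrictScalars S)
    ((MvPolynomial.aeval (R := S) (fun l => (x l : R))).toLinearMap ∘ₗ SymFree.toPoly ι b)
    (fun z => aeval_mem_pow I (fun l => (x l : R)) (fun l => (x l).2)
      (SymFree.toPoly_isHomogeneous b z))

theorem coe_evalSym (z : SymmetricPower S ι I.Cotangent) :
    (evalSym I b x z : R) = MvPolynomial.aeval (fun l => (x l : R)) (SymFree.toPoly ι b z) := rfl

include hx in
theorem canonGen_eq (z : SymmetricPower S ι I.Cotangent) :
    CanonGen.canonGen I q hq z = q (evalSym I b x z) := by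
  have : CanonGen.canonGen I q hq = q ∘ₗ evalSym I b x := by
    apply SymPow.hom_ext_on_span b b.span_eq
    intro f
    have h1 : (fun i => b (f i)) = fun i => I.toCotangent (x (f i)) :=
      funext fun i => (hx (f i)).symm
    rw [LinearMap.comp_apply]
    conv_lhs => rw [h1, CanonGen.canonGen_tprod I q hq (fun i => x (f i)), CanonGen.qprod]
    congr 1
    apply Subtype.ext
    rw [coe_evalSym, SymFree.toPoly_tprod, map_prod]
    simp
  exact congrArg (fun f : SymmetricPower S ι I.Cotangent →ₗ[S] N => f z) this

include hx in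
theorem canonGen_injective_iff (hq' : ∀ x : ↥((I ^ Fintype.card ι).restrictScalars S),
    q x = 0 → (x : R) ∈ I ^ (Fintype.card ι + 1)) :
    Function.Injective (CanonGen.canonGen I q hq) ↔
      ∀ P : MvPolynomial Λ S, P.IsHomogeneous (Fintype.card ι) →
        MvPolynomial.aeval (fun l => (x l : R)) P ∈ I ^ (Fintype.card ι + 1) → P = 0 := by
  rw [injective_iff_map_eq_zero]
  constructor
  · intro h P hP hP'
    have h1 := SymFree.toPoly_equivHomogeneous_symm (ι := ι) b ⟨P, hP⟩
    have h2 : (SymFree.equivHomogeneous ι b).symm ⟨P, hP⟩ = 0 := by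
      apply h
      rw [canonGen_eq I q hq b x hx]
      apply hq
      rw [coe_evalSym, h1]
      exact hP'
    rw [h2, map_zero] at h1
    exact h1.symm
  · intro h z hz
    rw [canonGen_eq I q hq b x hx] at hz
    have h1 := hq' _ hz
    rw [coe_evalSym] at h1
    have h2 := h _ (SymFree.toPoly_isHomogeneous b z) h1
    exact (injective_iff_map_eq_zero _).1 (SymFree.toPoly_injective b) z h2

end general

section diff

variable (A B : Type u) [CommRing A] [CommRing B] [Algebra A B] {Λ : Type w}
  (b : Basis Λ B (KaehlerDifferential A B)) (x : Λ → KaehlerDifferential.ideal A B)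
  (hx : ∀ l, KaehlerDifferential.fromIdeal A B (x l) = b l)

include hx in
/-- Injectivity of `Sym^n(Ω) → I^n/I^(n+1)` when `Ω` is free: homogeneous polynomials of degree `n`
whose value at lifts of a basis lies in `I^(n+1)` vanish. -/
theorem canon_injective_iff (ι : Type u) [Fintype ι] :
    Function.Injective (CanonMap.canon A B ι) ↔
      ∀ P : MvPolynomial Λ B, P.IsHomogeneous (Fintype.card ι) →
        MvPolynomial.aeval (fun l => (x l : B ⊗[A] B)) P ∈
          KaehlerDifferential.ideal A B ^ (Fintype.card ι + 1) → P = 0 :=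
  canonGen_injective_iff (KaehlerDifferential.ideal A B) (CanonMap.qI A B (Fintype.card ι))
    (fun x => (CanonMap.qI_eq_zero_iff A B _ x).2) b x hx
    (fun x => (CanonMap.qI_eq_zero_iff A B _ x).1)

include hx in
/-- Differential smoothness when `Ω` is free. -/
theorem isDiffSmooth_iff_of_basis : PP16.IsDiffSmooth A B ↔
    ∀ (n : ℕ) (P : MvPolynomial Λ B), P.IsHomogeneous n →
      MvPolynomial.aeval (fun l => (x l : B ⊗[A] B)) P ∈
        KaehlerDifferential.ideal A B ^ (n + 1) → P = 0 := by
  rw [CanonMap.isDiffSmooth_iff]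
  constructor
  · rintro ⟨_, h⟩ n
    have h1 := (canon_injective_iff A B b x hx (ULift.{u} (Fin n))).1 (h _)
    have h2 : Fintype.card (ULift.{u} (Fin n)) = n := by simp
    rw [h2] at h1
    exact h1
  · intro h
    have : Module.Free B (KaehlerDifferential A B) := Module.Free.of_basis b
    exact ⟨inferInstance, fun ι _ => (canon_injective_iff A B b x hx ι).2 (h _)⟩

end diff

end Groth.Agent.Ega4late.H516.CanonFree
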