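import Mathlib.RingTheory.MvPolynomial.EulerIdentity
import Mathlib.Algebra.MvPolynomial.PDeriv
import Mathlib.Algebra.Algebra.Rat
import Groth.Agent.Ega4late.H516.CanonFree

/-!
# Differential smoothness in characteristic zero

If `ℚ ⊆ B` and `Ω_{B/A}` is free (of any rank) then `B` is differentially smooth over `A`.
-/

set_option autoImplicit false

open TensorProduct Module MvPolynomial

universe u v w w'

namespace Groth.Agent.Ega4late.H516.CharZero

section derivations

variable {S : Type u} {R : Type v} [CommRing S] [CommRing R] [Algebra S R] (I : Ideal R)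

/-- A derivation maps `I^(n+1)` into `I^n`. -/
theorem derivation_mem_pow (D : Derivation S R R) (n : ℕ) {z : R} (hz : z ∈ I ^ (n + 1)) :
    D z ∈ I ^ n := by
  induction n generalizing z with
  | zero => simp
  | succ n ih =>
    rw [pow_succ'] at hz
    refine Submodule.mul_induction_on hz ?_ ?_
    · intro a ha c hc
      rw [D.leibniz, smul_eq_mul, smul_eq_mul]
      refine Ideal.add_mem _ ?_ ?_
      · rw [pow_succ']
        exact Ideal.mul_mem_mul ha (ih hc)
      · exact Ideal.mul_mem_right _ _ hc
    · intro a c ha hc
      rw [map_add]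
      exact Ideal.add_mem _ ha hc

variable {Λ : Type w} [DecidableEq Λ]

/-- The defect between differentiating a value and evaluating a partial derivative. -/
noncomputable def defect (x : Λ → R) (D : Derivation S R R) (l : Λ) (P : MvPolynomial Λ S) : R :=
  D (aeval x P) - aeval x (pderiv l P)

omit [DecidableEq Λ] in
theorem defect_add (x : Λ → R) (D : Derivation S R R) (l : Λ) (P Q : MvPolynomial Λ S) :
    defect x D l (P + Q) = defect x D l P + defect x D l Q := by
  simp only [defect, map_add]; ring

omit [DecidableEq Λ] in
theorem defect_smul (x : Λ → R) (D : Derivation S R R) (l : Λ) (s : S) (P : MvPolynomial Λ S) :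
    defect x D l (s • P) = s • defect x D l P := by
  simp only [defect, map_smul, Derivation.map_smul, smul_sub]

omit [DecidableEq Λ] in
theorem defect_mul (x : Λ → R) (D : Derivation S R R) (l : Λ) (P Q : MvPolynomial Λ S) :
    defect x D l (P * Q) = aeval x P * defect x D l Q + aeval x Q * defect x D l P := by
  simp only [defect, map_mul, Derivation.leibniz, map_add, smul_eq_mul]
  ring

omit [DecidableEq Λ] in
theorem defect_one (x : Λ → R) (D : Derivation S R R) (l : Λ) :
    defect x D l (1 : MvPolynomial Λ S) = 0 := by
  simp [defect]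

theorem defect_monomial_mem (x : Λ → R) (hx : ∀ l, x l ∈ I) (D : Derivation S R R) (l : Λ)
    (hD : ∀ k, D (x k) - (if k = l then 1 else 0) ∈ I) (n : ℕ) :
    ∀ (d : Λ →₀ ℕ), d.degree = n → defect x D l (monomial d (1 : S)) ∈ I ^ n := by
  induction n with
  | zero => intro d _; simp
  | succ n ih =>
    intro d hd
    have hd0 : d ≠ 0 := by
      rintro rfl
      simp at hd
    obtain ⟨k, hk⟩ := Finsupp.ne_iff.1 hd0
    have hk1 : Finsupp.single k 1 ≤ d := by
      rw [Finsupp.single_le_iff]
      exact Nat.one_le_iff_ne_zero.2 hk
    obtain ⟨e, rfl⟩ := exists_add_of_le hk1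
    have he : e.degree = n := by
      rw [map_add, Finsupp.degree_single] at hd
      omega
    have h1 : (monomial (Finsupp.single k 1 + e) (1 : S)) = X k * monomial e (1 : S) := by
      rw [X, monomial_mul, one_mul]
    rw [h1, defect_mul, aeval_X]
    refine Ideal.add_mem _ ?_ ?_
    · rw [pow_succ']
      exact Ideal.mul_mem_mul (hx k) (ih e he)
    · rw [pow_succ]
      refine Ideal.mul_mem_mul ?_ ?_
      · exact CanonFree.aeval_mem_pow I x hx (he ▸ isHomogeneous_monomial _ rfl)
      · have : defect x D l (X k : MvPolynomial Λ S) = D (x k) - (if k = l then 1 else 0) := by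
          rw [defect, aeval_X, pderiv_X]
          congr 1
          by_cases h : k = l
          · subst h; simp
          · simp [h]
        rw [this]
        exact hD k

theorem defect_mem (x : Λ → R) (hx : ∀ l, x l ∈ I) (D : Derivation S R R) (l : Λ)
    (hD : ∀ k, D (x k) - (if k = l then 1 else 0) ∈ I) (n : ℕ) (P : MvPolynomial Λ S)
    (hP : P.IsHomogeneous n) : defect x D l P ∈ I ^ n := by
  have h0 : defect x D l (0 : MvPolynomial Λ S) = 0 := by simp [defect]
  have key : ∀ s : Finset (Λ →₀ ℕ), ↑s ⊆ (P.support : Set (Λ →₀ ℕ)) →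
      defect x D l (∑ d ∈ s, monomial d (coeff d P)) ∈ I ^ n := by
    classical
    intro s
    induction s using Finset.induction_on with
    | empty => intro _; rw [Finset.sum_empty, h0]; exact Ideal.zero_mem _
    | insert d s hd ih =>
      intro hs
      rw [Finset.sum_insert hd, defect_add]
      refine Ideal.add_mem _ ?_ (ih fun e he => hs (by simp [Finset.mem_coe.1 he]))
      have h1 : monomial d (coeff d P) = coeff d P • monomial d (1 : S) := by
        rw [smul_monomial, smul_eq_mul, mul_one]
      have h2 : d.degree = n := by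
        rw [Finsupp.degree_eq_weight_one]
        exact hP (mem_support_iff.1 (hs (by simp)))
      rw [h1, defect_smul, Algebra.smul_def]
      exact Ideal.mul_mem_left _ _ (defect_monomial_mem I x hx D l hD n d h2)
  have := key P.support (by simp)
  rwa [← P.as_sum] at this

omit [DecidableEq Λ] in
/-- In characteristic zero a homogeneous polynomial of positive degree with vanishing partial
derivatives is zero. -/
theorem eq_zero_of_pderiv_eq_zero [Algebra ℚ S] {n : ℕ} {P : MvPolynomial Λ S}
    (hP : P.IsHomogeneous (n + 1)) (h : ∀ l, pderiv l P = 0) : P = 0 := by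
  ext d
  rw [coeff_zero]
  by_contra hd
  have h2 : d.degree = n + 1 := by
    rw [Finsupp.degree_eq_weight_one]
    exact hP hd
  have hd0 : d ≠ 0 := by
    rintro rfl
    simp at h2
  obtain ⟨k, hk⟩ := Finsupp.ne_iff.1 hd0
  have hk1 : Finsupp.single k 1 ≤ d := by
    rw [Finsupp.single_le_iff]
    exact Nat.one_le_iff_ne_zero.2 hk
  obtain ⟨e, rfl⟩ := exists_add_of_le hk1
  have h3 := coeff_pderiv (i := k) P e
  rw [h k, coeff_zero, add_comm e] at h3
  apply hd
  have h4 : IsUnit ((e k : S) + 1) := by
    have : ((e k : S) + 1) = algebraMap ℚ S ((e k : ℚ) + 1) := by simp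
    rw [this]
    exact (IsUnit.mk0 _ (by positivity)).map _
  exact (h4.mul_left_eq_zero).1 h3.symm

/-- Existence of derivations dual to the `x l` modulo `I` implies quasi-regularity in
characteristic zero. -/
theorem eq_zero_of_derivations [Algebra ℚ S] (hI : ∀ s : S, algebraMap S R s ∈ I → s = 0)
    (x : Λ → R) (hx : ∀ l, x l ∈ I) (D : Λ → Derivation S R R)
    (hD : ∀ l k, D l (x k) - (if k = l then 1 else 0) ∈ I) (n : ℕ) (P : MvPolynomial Λ S)
    (hP : P.IsHomogeneous n) (h : aeval x P ∈ I ^ (n + 1)) : P = 0 := by
  induction n generalizing P with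
  | zero =>
    have h1 : P = C (coeff 0 P) := by
      rw [← totalDegree_eq_zero_iff_eq_C, totalDegree_zero_iff_isHomogeneous]
      exact hP
    rw [h1] at h ⊢
    rw [aeval_C, zero_add, pow_one] at h
    rw [hI _ h, C_0]
  | succ n ih =>
    apply eq_zero_of_pderiv_eq_zero hP
    intro l
    apply ih (pderiv l P) hP.pderiv
    have h1 := derivation_mem_pow I (D l) (n + 1) h
    have h2 := defect_mem I x hx (D l) l (hD l) (n + 1) P hP
    have h3 : aeval x (pderiv l P) = D l (aeval x P) - defect x (D l) l P := by
      rw [defect]; ring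
    rw [h3]
    exact Ideal.sub_mem _ h1 h2

end derivations

section baseChange

variable {A B : Type u} [CommRing A] [CommRing B] [Algebra A B]

/-- The derivation `id ⊗ D` of `B ⊗[A] B`, linear over the first factor. -/
noncomputable def bcDer (D : Derivation A B B) : Derivation B (B ⊗[A] B) (B ⊗[A] B) :=
  Derivation.mk' (LinearMap.baseChange B D.toLinearMap) (by
    intro a c
    induction a using TensorProduct.induction_on with
    | zero => simp
    | add a a' ha ha' => rw [add_mul, map_add, ha, ha', map_add, add_smul, smul_add]; abel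
    | tmul a₁ a₂ =>
      induction c using TensorProduct.induction_on with
      | zero => simp
      | add c c' hc hc' => rw [mul_add, map_add, hc, hc', map_add, add_smul, smul_add]; abel
      | tmul c₁ c₂ =>
        simp only [Algebra.TensorProduct.tmul_mul_tmul, LinearMap.baseChange_tmul, smul_eq_mul]
        change (a₁ * c₁) ⊗ₜ[A] D (a₂ * c₂) = (a₁ * c₁) ⊗ₜ[A] (a₂ * D c₂) +
          (c₁ * a₁) ⊗ₜ[A] (c₂ * D a₂)
        rw [D.leibniz, TensorProduct.tmul_add, smul_eq_mul, smul_eq_mul, mul_comm c₁ a₁])

theorem bcDer_tmul (D : Derivation A B B) (a c : B) : bcDer D (a ⊗ₜ[A] c) = a ⊗ₜ[A] D c := rfl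

theorem lmul'_bcDer (D : Derivation A B B) (z : B ⊗[A] B) :
    Algebra.TensorProduct.lmul' A (bcDer D z) = D.tensorProductTo z := by
  induction z using TensorProduct.induction_on with
  | zero => simp
  | add a c ha hc => rw [map_add, map_add, ha, hc, map_add]
  | tmul a c =>
    rw [bcDer_tmul, Algebra.TensorProduct.lmul'_apply_tmul, Derivation.tensorProductTo_tmul,
      smul_eq_mul]

end baseChange

/-- In characteristic zero an algebra with free module of differentials is differentially
smooth. -/
theorem isDiffSmooth_of_free (A B : Type u) [CommRing A] [CommRing B] [Algebra A B] [Algebra ℚ B]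
    (hΩ : Module.Free B (KaehlerDifferential A B)) : PP16.IsDiffSmooth A B := by
  classical
  let b := Module.Free.chooseBasis B (KaehlerDifferential A B)
  choose x hx using fun l => KaehlerDifferential.fromIdeal_surjective A B (b l)
  rw [CanonFree.isDiffSmooth_iff_of_basis A B b x hx]
  intro n P hP h
  refine eq_zero_of_derivations (KaehlerDifferential.ideal A B) ?_ _ (fun l => (x l).2)
    (fun l => bcDer ((b.coord l).compDer (KaehlerDifferential.D A B))) ?_ n P hP h
  · intro s hs
    rw [RingHom.mem_ker] at hs
    simpa using hs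
  · intro l k
    rw [RingHom.mem_ker, map_sub, lmul'_bcDer, ← Derivation.liftKaehlerDifferential_apply]
    have h1 : (((b.coord l).compDer (KaehlerDifferential.D A B))).liftKaehlerDifferential =
        b.coord l := by
      apply Derivation.liftKaehlerDifferential_unique
      exact Derivation.liftKaehlerDifferential_comp _
    have h2 : (KaehlerDifferential.ideal A B).toCotangent (x k) = b k := hx k
    rw [h1, h2, Basis.coord_apply, Basis.repr_self, Finsupp.single_apply]
    split_ifs <;> simp

end Groth.Agent.Ega4late.H516.CharZero
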