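import Mathlib.RingTheory.MvPolynomial.Basic
import Mathlib.RingTheory.MvPolynomial.Homogeneous
import Mathlib.LinearAlgebra.Multilinear.Basic
import Groth.Agent.Ega4late.H516.SymPow

/-!
# Symmetric powers of a free module and homogeneous polynomials

For a basis `b : Λ → M` of a free module, the symmetric power `Sym^ι M` is isomorphic to the module
of homogeneous polynomials of degree `|ι|` in variables indexed by `Λ`.
-/

set_option autoImplicit false

open TensorProduct Equiv Module

universe u v w

namespace Groth.Agent.Ega4late.H516.SymFree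

section perm

/-- Two families indexed by a finite type with the same number of occurrences of each value differ
by a permutation. -/
theorem exists_perm_of_sum_single_eq {ι : Type u} [Fintype ι] {Λ : Type w} (f g : ι → Λ)
    (h : ∑ i, Finsupp.single (f i) 1 = (∑ i, Finsupp.single (g i) 1 : Λ →₀ ℕ)) :
    ∃ σ : Perm ι, ∀ i, g (σ i) = f i := by
  classical
  have key : ∀ l : Λ, Nonempty ({i // f i = l} ≃ {i // g i = l}) := by
    intro l
    rw [← Fintype.card_eq, Fintype.card_subtype, Fintype.card_subtype]
    have := DFunLike.congr_fun h l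
    simpa [Finsupp.finsetSum_apply, Finsupp.single_apply, Finset.sum_boole] using this
  exact ⟨Equiv.ofFiberEquiv fun l => (key l).some,
    fun i => Equiv.ofFiberEquiv_map (fun l => (key l).some) i⟩

end perm

section toPoly

variable {R ι : Type u} [CommRing R] [Fintype ι] {M : Type v} [AddCommGroup M] [Module R M]
  {Λ : Type w} (b : Basis Λ R M)

/-- The linear form in the variables `X_l` attached to an element of `M`. -/
noncomputable def linForm : M →ₗ[R] MvPolynomial Λ R := b.constr R (fun l => MvPolynomial.X l)

@[simp]
theorem linForm_basis (l : Λ) : linForm b (b l) = MvPolynomial.X l := by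
  simp [linForm]

theorem linForm_isHomogeneous (m : M) : (linForm b m).IsHomogeneous 1 := by
  rw [linForm, Basis.constr_apply, Finsupp.sum]
  exact MvPolynomial.IsHomogeneous.sum _ _ _ fun l _ =>
    Submodule.smul_mem (MvPolynomial.homogeneousSubmodule Λ R 1) _
      (MvPolynomial.isHomogeneous_X R l)

variable (ι) in
/-- The canonical map from the symmetric power to polynomials. -/
noncomputable def toPoly : SymmetricPower R ι M →ₗ[R] MvPolynomial Λ R :=
  SymPow.lift ((MultilinearMap.mkPiAlgebra R ι (MvPolynomial Λ R)).compLinearMap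
    (fun _ => linForm b)) (by
      intro e m
      simp only [MultilinearMap.compLinearMap_apply, MultilinearMap.mkPiAlgebra_apply]
      exact Equiv.prod_comp e (fun i => linForm b (m i)))

@[simp]
theorem toPoly_tprod (m : ι → M) :
    toPoly ι b (SymmetricPower.tprod R m) = ∏ i, linForm b (m i) := by
  rw [toPoly, SymPow.lift_tprod]
  simp only [MultilinearMap.compLinearMap_apply, MultilinearMap.mkPiAlgebra_apply]

theorem toPoly_tprod_basis (f : ι → Λ) :
    toPoly ι b (SymmetricPower.tprod R (fun i => b (f i))) =
      MvPolynomial.monomial (∑ i, Finsupp.single (f i) 1) 1 := by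
  rw [toPoly_tprod]
  simp only [linForm_basis]
  rw [MvPolynomial.monomial_sum_one]
  rfl

theorem toPoly_isHomogeneous (z : SymmetricPower R ι M) :
    (toPoly ι b z).IsHomogeneous (Fintype.card ι) := by
  have hz : z ∈ Submodule.span R (Set.range (SymmetricPower.tprod R (ι := ι) (M := M))) := by
    rw [SymmetricPower.span_tprod_eq_top]; trivial
  change toPoly ι b z ∈ MvPolynomial.homogeneousSubmodule Λ R (Fintype.card ι)
  induction hz using Submodule.span_induction with
  | mem x hx =>
    obtain ⟨m, rfl⟩ := hx
    rw [toPoly_tprod]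
    have := MvPolynomial.IsHomogeneous.prod Finset.univ (fun i => linForm b (m i)) (fun _ => 1)
      (fun i _ => linForm_isHomogeneous b (m i))
    simpa using this
  | zero => rw [map_zero]; exact Submodule.zero_mem _
  | add x y _ _ hx hy => rw [map_add]; exact Submodule.add_mem _ hx hy
  | smul r x _ hx => rw [map_smul]; exact Submodule.smul_mem _ _ hx

open Classical in
variable (ι) in
/-- A left inverse of the canonical map `toPoly`. -/
noncomputable def ofPoly : MvPolynomial Λ R →ₗ[R] SymmetricPower R ι M :=
  (MvPolynomial.basisMonomials Λ R).constr R fun d =>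
    if h : ∃ f : ι → Λ, ∑ i, Finsupp.single (f i) 1 = d then
      SymmetricPower.tprod R (fun i => b (h.choose i)) else 0

theorem ofPoly_monomial (f : ι → Λ) :
    ofPoly ι b (MvPolynomial.monomial (∑ i, Finsupp.single (f i) 1) 1) =
      SymmetricPower.tprod R (fun i => b (f i)) := by
  classical
  have h : ∃ g : ι → Λ, ∑ i, Finsupp.single (g i) 1 = (∑ i, Finsupp.single (f i) 1 : Λ →₀ ℕ) :=
    ⟨f, rfl⟩
  have e : (MvPolynomial.monomial (∑ i, Finsupp.single (f i) 1) (1 : R)) =
      MvPolynomial.basisMonomials Λ R (∑ i, Finsupp.single (f i) 1) := by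
    rw [MvPolynomial.coe_basisMonomials]
  rw [e, ofPoly, Basis.constr_basis, dif_pos h]
  obtain ⟨σ, hσ⟩ := exists_perm_of_sum_single_eq _ _ h.choose_spec
  have := SymmetricPower.tprod_equiv (R := R) σ (fun i => b (f i))
  rw [← this]
  congr 1
  funext i
  rw [hσ i]

theorem ofPoly_comp_toPoly : (ofPoly ι b).comp (toPoly ι b) = LinearMap.id := by
  apply SymPow.hom_ext_on_span b b.span_eq
  intro f
  rw [LinearMap.comp_apply, toPoly_tprod_basis, ofPoly_monomial, LinearMap.id_apply]

theorem ofPoly_toPoly (z : SymmetricPower R ι M) : ofPoly ι b (toPoly ι b z) = z :=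
  congrArg (fun f : SymmetricPower R ι M →ₗ[R] SymmetricPower R ι M => f z) (ofPoly_comp_toPoly b)

theorem toPoly_injective : Function.Injective (toPoly ι b) :=
  Function.LeftInverse.injective (ofPoly_toPoly b)

/-- A finitely supported function of total mass `|ι|` is the counting function of a family. -/
theorem exists_sum_single_eq (d : Λ →₀ ℕ) (hd : d.degree = Fintype.card ι) :
    ∃ f : ι → Λ, ∑ i, Finsupp.single (f i) 1 = d := by
  classical
  have hcard : (Finsupp.toMultiset d).card = Fintype.card ι := by
    rw [Finsupp.card_toMultiset, ← hd]; rfl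
  obtain ⟨l, hl⟩ : ∃ l : List Λ, (l : Multiset Λ) = Finsupp.toMultiset d :=
    ⟨_, Multiset.coe_toList _⟩
  have hlen : l.length = Fintype.card ι := by
    rw [← hcard, ← hl, Multiset.coe_card]
  let e : ι ≃ Fin l.length := (Fintype.equivFin ι).trans (finCongr hlen.symm)
  refine ⟨fun i => l.get (e i), ?_⟩
  have h1 : (Finset.univ.val.map l.get : Multiset Λ) = l := by
    rw [Fin.univ_val_map, List.ofFn_get]
  have h2 : ∑ j, ({l.get j} : Multiset Λ) = l := by
    rw [Finset.sum_eq_multiset_sum]
    conv_rhs => rw [← h1, ← Multiset.sum_map_singleton (Finset.univ.val.map l.get),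
      Multiset.map_map]
    rfl
  apply (Multiset.toFinsupp (α := Λ)).symm.injective
  change Finsupp.toMultiset _ = Finsupp.toMultiset d
  rw [Finsupp.toMultiset_sum, ← hl]
  simp only [Finsupp.toMultiset_single, one_smul]
  rw [Equiv.sum_comp e (fun j => ({l.get j} : Multiset Λ)), h2]

/-- Every homogeneous polynomial of degree `|ι|` comes from the symmetric power. -/
theorem range_toPoly :
    LinearMap.range (toPoly ι b) = MvPolynomial.homogeneousSubmodule Λ R (Fintype.card ι) := by
  apply le_antisymm
  · rintro _ ⟨z, rfl⟩
    exact toPoly_isHomogeneous b z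
  · intro P hP
    rw [MvPolynomial.mem_homogeneousSubmodule] at hP
    rw [P.as_sum]
    refine Submodule.sum_mem _ fun d hd => ?_
    have hd' : d.degree = Fintype.card ι := by
      have := hP (MvPolynomial.mem_support_iff.1 hd)
      rwa [Finsupp.degree_eq_weight_one]
    obtain ⟨f, hf⟩ := exists_sum_single_eq (ι := ι) d hd'
    refine ⟨(MvPolynomial.coeff d P) • SymmetricPower.tprod R (fun i => b (f i)), ?_⟩
    rw [map_smul, toPoly_tprod_basis, hf, MvPolynomial.smul_monomial, smul_eq_mul, mul_one]

variable (ι) in
/-- The symmetric power of a free module is the module of homogeneous polynomials. -/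
noncomputable def equivHomogeneous :
    SymmetricPower R ι M ≃ₗ[R] MvPolynomial.homogeneousSubmodule Λ R (Fintype.card ι) :=
  (LinearEquiv.ofInjective (toPoly ι b) (toPoly_injective b)).trans
    (LinearEquiv.ofEq _ _ (range_toPoly b))

@[simp]
theorem coe_equivHomogeneous (z : SymmetricPower R ι M) :
    (equivHomogeneous ι b z : MvPolynomial Λ R) = toPoly ι b z := rfl

theorem toPoly_equivHomogeneous_symm
    (P : MvPolynomial.homogeneousSubmodule Λ R (Fintype.card ι)) :
    toPoly ι b ((equivHomogeneous ι b).symm P) = P := by
  rw [← coe_equivHomogeneous, LinearEquiv.apply_symm_apply]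

end toPoly

end Groth.Agent.Ega4late.H516.SymFree
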